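import Mathlib
import Cfsg.Agent.BT.SAa
import Cfsg.Agent.S3360

/-!
# S3776, piece T2: coordinates for a solvable group acting transitively on the involutions of an elementary abelian
2-subgroup
-/

set_option autoImplicit false

namespace Cfsg.Agent.Suz3

universe u v

/-- a transitive semilinear group over a finite field contains a large scalar -/
theorem torus {K : Type v} [Group K] [Finite K] {F : Type} [Field F] [Finite F] {n : ℕ} (hcard : Nat.card F = 2 ^ n)
    (act : K → F → F) (hmul : ∀ k l t, act (k * l) t = act k (act l t)) (hone : ∀ t, act 1 t = t)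
    (hsemi : ∀ k, ∃ (a : F) (σ : F ≃+* F), ∀ t, act k t = a * σ t)
    (htrans : ∀ s t : F, s ≠ 0 → t ≠ 0 → ∃ k, act k s = t) :
    (∀ k, ∃ a : F, a ≠ 0 ∧ ∃ θ : F ≃+* F, ∀ t, act k t = a * θ t) ∧
    ∃ (κ : K) (lam : F), lam ≠ 0 ∧ (∀ t, act κ t = lam * t) ∧ (2 ^ n - 1) ∣ n * orderOf lam := by
  classical
  have hinv : ∀ k t, act k (act k⁻¹ t) = t := fun k t => by rw [← hmul, mul_inv_cancel, hone]
  choose a σ hσ using hsemi
  have ha : ∀ k, a k ≠ 0 := by
    intro k hk
    have h1 := hinv k 1
    rw [hσ, hk, zero_mul] at h1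
    exact zero_ne_one h1
  refine ⟨fun k => ⟨a k, ha k, σ k, hσ k⟩, ?_⟩
  have ha1 : ∀ k, act k 1 = a k := fun k => by rw [hσ, map_one, mul_one]
  have hamul : ∀ k l, a (k * l) = a k * σ k (a l) := by
    intro k l
    rw [← ha1, hmul, ha1, hσ]
  have hσmul : ∀ k l, σ (k * l) = σ k * σ l := by
    intro k l
    ext t
    have h1 : a (k * l) * σ (k * l) t = a (k * l) * (σ k (σ l t)) := by
      rw [← hσ, hmul, hσ, hσ, map_mul, hamul, mul_assoc]
    exact mul_left_cancel₀ (ha _) h1
  let Θ : K →* (F ≃+* F) := MonoidHom.mk' σ hσmul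
  let α : Θ.ker →* Fˣ := MonoidHom.mk' (fun k => Units.mk0 (a k) (ha k)) (by
    intro k l
    apply Units.ext
    show a ((k : K) * l) = a k * a l
    rw [hamul]
    have h1 : σ (k : K) = 1 := k.2
    rw [h1]; rfl)
  let mact : MulAction K F :=
    { smul := act
      one_smul := hone
      mul_smul := hmul }
  have hsm : ∀ (k : K) (t : F), k • t = act k t := fun k t => rfl
  set St : Subgroup K := MulAction.stabilizer K (1 : F) with hSt
  have hmemSt : ∀ k : K, k ∈ St ↔ a k = 1 := by
    intro k
    rw [hSt, MulAction.mem_stabilizer_iff, hsm, ha1]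
  have hidx : St.index = 2 ^ n - 1 := by
    rw [hSt, MulAction.index_stabilizer]
    have h1 : MulAction.orbit K (1 : F) = {(0 : F)}ᶜ := by
      ext t
      rw [Set.mem_compl_singleton_iff]
      constructor
      · rintro ⟨k, rfl⟩
        show act k 1 ≠ 0
        rw [ha1]
        exact ha k
      · intro ht
        obtain ⟨k, hk⟩ := htrans 1 t one_ne_zero ht
        exact ⟨k, hk⟩
    rw [h1, Set.ncard_compl, Set.ncard_singleton, hcard]
  have hα : α.ker = St.subgroupOf Θ.ker := by
    ext k
    rw [MonoidHom.mem_ker, Subgroup.mem_subgroupOf, hmemSt]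
    constructor
    · intro h
      exact congrArg Units.val h
    · intro h
      exact Units.ext h
  have e1 : (Θ.ker ⊓ St).relIndex St * St.index = (Θ.ker ⊓ St).index := Subgroup.relIndex_mul_index inf_le_right
  have e2 : (Θ.ker ⊓ St).relIndex Θ.ker * Θ.ker.index = (Θ.ker ⊓ St).index :=
    Subgroup.relIndex_mul_index inf_le_left
  have e3 : (Θ.ker ⊓ St).relIndex Θ.ker = Nat.card α.range := by
    rw [Subgroup.inf_relIndex_left, Subgroup.relIndex, ← hα, Subgroup.index_ker]
  have e4 : Θ.ker.index ∣ n := by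
    rw [Subgroup.index_ker]
    have h1 := Subgroup.card_subgroup_dvd_card Θ.range
    have : Fact (Nat.Prime 2) := ⟨Nat.prime_two⟩
    rwa [BT.SA.card_ringEquiv F hcard] at h1
  obtain ⟨⟨g, hg⟩, hgen⟩ := IsCyclic.exists_ofOrder_eq_natCard (α := α.range)
  obtain ⟨⟨κ, hκ⟩, hκg⟩ := hg
  refine ⟨κ, a κ, ha κ, fun t => ?_, ?_⟩
  · rw [hσ]
    have h1 : σ κ = 1 := hκ
    rw [h1]; rfl
  · have h1 : orderOf (a κ) = Nat.card α.range := by
      rw [← hgen, ← Subgroup.orderOf_coe, ← orderOf_units]
      show orderOf (a κ) = orderOf (g : F)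
      rw [← hκg]; rfl
    rw [h1, ← hidx]
    have h2 : St.index ∣ Nat.card α.range * Θ.ker.index := by
      rw [← e3, e2, ← e1]
      exact Dvd.intro_left _ rfl
    refine h2.trans ?_
    rw [mul_comm]
    exact Nat.mul_dvd_mul_right e4 _

theorem coords {P : Type u} {K : Type v} [Group P] [Group K] [MulDistribMulAction K P] [Finite P] [Finite K]
    (E : Subgroup P) (hcomm : ∀ x ∈ E, ∀ y ∈ E, x * y = y * x) (hsq : ∀ x ∈ E, x * x = 1)
    (hinv : ∀ k : K, ∀ x ∈ E, k • x ∈ E)
    (htrans : ∀ x ∈ E, ∀ y ∈ E, x ≠ 1 → y ≠ 1 → ∃ k : K, k • x = y) (hsol : Group.IsSolvable K) {n : ℕ}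
    (hn : 2 ≤ n) (hcard : Nat.card E = 2 ^ n) :
    ∃ (F : Type) (_ : Field F) (_ : Finite F) (_ : CharP F 2) (π : P → F) (κ : K) (lam : F), Nat.card F = 2 ^ n ∧
      (∀ x ∈ E, ∀ y ∈ E, π (x * y) = π x + π y) ∧ (∀ x ∈ E, π x = 0 → x = 1) ∧ (∀ s, ∃ x ∈ E, π x = s) ∧
      (∀ k : K, ∃ a : F, a ≠ 0 ∧ ∃ θ : F ≃+* F, ∀ x ∈ E, π (k • x) = a * θ (π x)) ∧ lam ≠ 0 ∧
      (∀ x ∈ E, π (κ • x) = lam * π x) ∧ (2 ^ n - 1) ∣ n * orderOf lam := by
  classical
  have : Fact (Nat.Prime 2) := ⟨Nat.prime_two⟩
  let cE : CommGroup E := { (inferInstance : Group E) with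
    mul_comm := fun x y => Subtype.ext (hcomm x x.2 y y.2) }
  let mE : Module (ZMod 2) (Additive E) := AddCommGroup.zmodModule (n := 2) (G := Additive E) (by
    intro x
    rw [two_nsmul]
    apply Additive.toMul.injective
    apply Subtype.ext
    exact hsq _ (Additive.toMul x).2)
  -- the representation
  let f : K → Additive E →+ Additive E := fun k =>
    { toFun := fun x => Additive.ofMul ⟨k • ((Additive.toMul x : E) : P), hinv k _ (Additive.toMul x).2⟩
      map_zero' := by
        apply Additive.toMul.injective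
        apply Subtype.ext
        exact smul_one k
      map_add' := by
        intro x y
        apply Additive.toMul.injective
        apply Subtype.ext
        exact smul_mul' k _ _ }
  have hf : ∀ (k : K) (x : Additive E), ((Additive.toMul (f k x) : E) : P) = k • ((Additive.toMul x : E) : P) :=
    fun k x => rfl
  have hf1 : ∀ x, f 1 x = x := by
    intro x
    apply Additive.toMul.injective
    apply Subtype.ext
    rw [hf, one_smul]
  have hfm : ∀ k l x, f (k * l) x = f k (f l x) := by
    intro k l x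
    apply Additive.toMul.injective
    apply Subtype.ext
    rw [hf, hf, hf, mul_smul]
  let ρ0 : K →* (Additive E ≃ₗ[ZMod 2] Additive E) := MonoidHom.mk' (fun k =>
    { toFun := f k
      map_add' := map_add (f k)
      map_smul' := fun c x => ZMod.map_smul (f k) c x
      invFun := f k⁻¹
      left_inv := fun x => by rw [← hfm, inv_mul_cancel, hf1]
      right_inv := fun x => by rw [← hfm, mul_inv_cancel, hf1] }) (by
    intro k l
    ext x
    exact congrArg (fun y => ((Additive.toMul y : E) : P)) (hfm k l x))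
  have hρ0 : ∀ k x, ρ0 k x = f k x := fun k x => rfl
  have hEne : Nontrivial (Additive E) := by
    have h1 : 1 < Nat.card (Additive E) := by
      show 1 < Nat.card E
      rw [hcard]
      exact Nat.one_lt_two_pow (by omega)
    exact Finite.one_lt_card_iff_nontrivial.1 h1
  have hsolG : Group.IsSolvable ρ0.range := Group.isSolvable_of_surjective ρ0.rangeRestrict_surjective
  have hfinG : Finite ρ0.range := Finite.of_surjective _ ρ0.rangeRestrict_surjective
  have hS := Cfsg.Agent.S3360.result 2 (V := Additive E) hsolG ρ0.range.subtype ρ0.range.subtype_injective (by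
    intro v w hv hw
    have hv' : ((Additive.toMul v : E) : P) ≠ 1 := by
      intro h
      apply hv
      apply Additive.toMul.injective
      exact Subtype.ext h
    have hw' : ((Additive.toMul w : E) : P) ≠ 1 := by
      intro h
      apply hw
      apply Additive.toMul.injective
      exact Subtype.ext h
    obtain ⟨k, hk⟩ := htrans _ (Additive.toMul v).2 _ (Additive.toMul w).2 hv' hw'
    refine ⟨⟨ρ0 k, k, rfl⟩, ?_⟩
    apply Additive.toMul.injective
    apply Subtype.ext
    exact hk)
  rcases hS with ⟨F, iF, iFF, e, he⟩ | hex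
  swap
  · exfalso
    have h1 : Nat.card (Additive E) = 2 ^ n := hcard
    rw [h1] at hex
    have h2 : 2 ∣ 2 ^ n := dvd_pow_self 2 (by omega)
    simp only [Set.mem_insert_iff, Set.mem_singleton_iff] at hex
    omega
  have hcF : Nat.card F = 2 ^ n := by
    rw [← hcard]
    exact (Nat.card_congr e.toEquiv).symm
  have h20 : (2 : F) = 0 := by
    have h1 : ∀ x : Additive E, x + x = 0 := by
      intro x
      apply Additive.toMul.injective
      apply Subtype.ext
      exact hsq _ (Additive.toMul x).2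
    have h2 : e (e.symm 1 + e.symm 1) = 1 + 1 := by rw [map_add, e.apply_symm_apply]
    rw [h1, map_zero] at h2
    rw [← one_add_one_eq_two, ← h2]
  have hchar : CharP F 2 := CharTwo.of_one_ne_zero_of_two_eq_zero one_ne_zero h20
  have hfinF : Finite F := Finite.of_fintype F
  obtain ⟨hA, κ, lam, hlam, hκ, hdvd⟩ := torus hcF (fun (k : K) (t : F) => e (f k (e.symm t)))
    (fun k l t => by simp only [hfm, e.symm_apply_apply]) (fun t => by simp only [hf1, e.apply_symm_apply])
    (fun k => by
      obtain ⟨a, σ, hσ⟩ := he ⟨ρ0 k, k, rfl⟩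
      refine ⟨a, σ, fun t => ?_⟩
      have h1 := hσ (e.symm t)
      rw [e.apply_symm_apply] at h1
      exact h1)
    (fun s t hs ht => by
      have h1 : ∀ r : F, r ≠ 0 → ((Additive.toMul (e.symm r) : E) : P) ≠ 1 := by
        intro r hr h
        apply hr
        have h2 : e.symm r = 0 := by
          apply Additive.toMul.injective
          exact Subtype.ext h
        rw [← e.apply_symm_apply r, h2, map_zero]
      obtain ⟨k, hk⟩ := htrans _ (Additive.toMul (e.symm s)).2 _ (Additive.toMul (e.symm t)).2 (h1 s hs) (h1 t ht)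
      refine ⟨k, ?_⟩
      have h2 : f k (e.symm s) = e.symm t := by
        apply Additive.toMul.injective
        exact Subtype.ext hk
      show e (f k (e.symm s)) = t
      rw [h2, e.apply_symm_apply])
  let π : P → F := fun x => if h : x ∈ E then e (Additive.ofMul ⟨x, h⟩) else 0
  have hπ : ∀ x (h : x ∈ E), π x = e (Additive.ofMul ⟨x, h⟩) := fun x h => dif_pos h
  have hπk : ∀ (k : K) x (h : x ∈ E), π (k • x) = e (f k (e.symm (π x))) := by
    intro k x h
    rw [hπ x h, hπ _ (hinv k x h), e.symm_apply_apply]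
    rfl
  refine ⟨F, iF, hfinF, hchar, π, κ, lam, hcF, ?_, ?_, ?_, ?_, hlam, ?_, hdvd⟩
  · intro x hx y hy
    rw [hπ x hx, hπ y hy, hπ _ (E.mul_mem hx hy), ← map_add]
    rfl
  · intro x hx h
    rw [hπ x hx] at h
    have h1 : Additive.ofMul (⟨x, hx⟩ : E) = 0 := e.map_eq_zero_iff.1 h
    exact congrArg (fun y => ((Additive.toMul y : E) : P)) h1
  · intro s
    refine ⟨_, (Additive.toMul (e.symm s)).2, ?_⟩
    rw [hπ _ (Additive.toMul (e.symm s)).2]
    exact e.apply_symm_apply s
  · intro k
    obtain ⟨a, ha, θ, hθ⟩ := hA k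
    refine ⟨a, ha, θ, fun x hx => ?_⟩
    rw [hπk k x hx]
    exact hθ (π x)
  · intro x hx
    rw [hπk κ x hx]
    exact hκ (π x)

end Cfsg.Agent.Suz3
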